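import Cfsg.Agent.TH.Spor.NBA0
import Cfsg.Agent.TH.Spor.NBC0
import Cfsg.Agent.TH.Spor.NBC1
import Cfsg.Agent.TH.Spor.NBC2

/-!
# S3541, sporadic rows: B (helper26; generated by notes/TH/spor26/gen.py.txt)
-/

set_option autoImplicit false
set_option Elab.async false

namespace Cfsg.Agent.TH.Spor.NB

open Cfsg Cfsg.Agent.TAB.Eng Cfsg.Agent.H940.Eng

theorem okB : ∀ ld ∈ big, bigE E ld = true :=
  fa_cons okB47 <| fa_cons okB31 <| fa_cons okB23 <| fa_cons okB19 <|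
  fa_cons okB17 <| fa_nil

theorem okA : ∀ a ∈ divsT [(13, 1), (11, 1), (7, 2)], allA (leaf E) [(5, 6), (3, 13), (2, 41)] a = true := by
  rw [show divsT [(13, 1), (11, 1), (7, 2)] = [1, 7, 49, 11, 77, 539, 13, 91, 637, 143, 1001, 7007]
  by decide +kernel]
  exact fa_cons okA0 <| fa_cons okA1 <| fa_cons okA2 <| fa_cons okA3 <|
    fa_cons okA4 <| fa_cons okA5 <| fa_cons okA6 <| fa_cons okA7 <|
    fa_cons okA8 <| fa_cons okA9 <| fa_cons okA10 <| fa_cons okA11 <|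
    fa_nil

/-- the pairs -/
def pj (L : List (ℕ × ℕ × List Step)) : List (ℕ × ℕ) := L.map fun x => (x.1, x.2.1)

theorem okC : ∀ x ∈ E.SV, ∃ CL, okL TAB.B.Fin.datF R E.j E.P E.Z CL = true ∧ x ∈ pj CL := by
  rw [show E.SV = [pj CL0, pj CL1, pj CL2, pj CL3, pj CL4, pj CL5, pj CL6, pj CL7, pj CL8, pj CL9, pj CL10].flatten
  by decide +kernel]
  exact forall_flatten <| fa_cons (fun _ h => ⟨_, okC0, h⟩) <| fa_cons (fun _ h => ⟨_, okC1, h⟩) <| fa_cons (fun _ h => ⟨_, okC2, h⟩) <| fa_cons (fun _ h => ⟨_, okC3, h⟩) <|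
    fa_cons (fun _ h => ⟨_, okC4, h⟩) <| fa_cons (fun _ h => ⟨_, okC5, h⟩) <| fa_cons (fun _ h => ⟨_, okC6, h⟩) <| fa_cons (fun _ h => ⟨_, okC7, h⟩) <|
    fa_cons (fun _ h => ⟨_, okC8, h⟩) <| fa_cons (fun _ h => ⟨_, okC9, h⟩) <| fa_cons (fun _ h => ⟨_, okC10, h⟩) <| fa_nil

/-- **no configuration** -/
theorem noW {K : Type} [Group K] [Finite K] (h : In K TAB.B.Fin.datF TAB.B.Fin.tabB) : NoW K 2 :=
  noW_of (E := E) boxCH (R_eq ▸ h).inC ok1 (H940.Eng.D.ords_b base)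
    (fun ld h => ⟨List.mem_append_left _ h, okB ld h⟩) (by decide +kernel) okA okC

end Cfsg.Agent.TH.Spor.NB
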