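import Cfsg.Agent.TH.Spor.NBD

/-!
# S3541, sporadic rows: B, enumeration (helper26; generated by notes/TH/spor26/gen.py.txt)
-/

set_option autoImplicit false
set_option Elab.async false

namespace Cfsg.Agent.TH.Spor.NB

open Cfsg Cfsg.Agent.TAB.Eng Cfsg.Agent.H940.Eng

theorem okA0 : allA (leaf E) [(5, 6), (3, 13), (2, 41)] 1 = true := by decide +kernel

theorem okA1 : allA (leaf E) [(5, 6), (3, 13), (2, 41)] 7 = true := by decide +kernel

theorem okA2 : allA (leaf E) [(5, 6), (3, 13), (2, 41)] 49 = true := by decide +kernel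

theorem okA3 : allA (leaf E) [(5, 6), (3, 13), (2, 41)] 11 = true := by decide +kernel

theorem okA4 : allA (leaf E) [(5, 6), (3, 13), (2, 41)] 77 = true := by decide +kernel

theorem okA5 : allA (leaf E) [(5, 6), (3, 13), (2, 41)] 539 = true := by decide +kernel

theorem okA6 : allA (leaf E) [(5, 6), (3, 13), (2, 41)] 13 = true := by decide +kernel

theorem okA7 : allA (leaf E) [(5, 6), (3, 13), (2, 41)] 91 = true := by decide +kernel

theorem okA8 : allA (leaf E) [(5, 6), (3, 13), (2, 41)] 637 = true := by decide +kernel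

theorem okA9 : allA (leaf E) [(5, 6), (3, 13), (2, 41)] 143 = true := by decide +kernel

theorem okA10 : allA (leaf E) [(5, 6), (3, 13), (2, 41)] 1001 = true := by decide +kernel

theorem okA11 : allA (leaf E) [(5, 6), (3, 13), (2, 41)] 7007 = true := by decide +kernel

theorem okB47 : bigE E ⟨47, 47, [(23, 1), (47, 1)]⟩ = true := by
  decide +kernel

theorem okB31 : bigE E ⟨31, 31, [(3, 1), (5, 1), (31, 1)]⟩ = true := by
  decide +kernel

theorem okB23 : bigE E ⟨23, 46, [(2, 1), (11, 1), (23, 1)]⟩ = true := by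
  decide +kernel

theorem okB19 : bigE E ⟨19, 76, [(2, 2), (3, 2), (19, 1)]⟩ = true := by
  decide +kernel

theorem okB17 : bigE E ⟨17, 1088, [(2, 6), (17, 1)]⟩ = true := by
  decide +kernel

end Cfsg.Agent.TH.Spor.NB
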