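import Cfsg.Agent.TH.Spor.NCo1A0
import Cfsg.Agent.TH.Spor.NCo1C0
import Cfsg.Agent.TH.Spor.NCo1C1
import Cfsg.Agent.TH.Spor.NCo1C2

/-!
# S3541, sporadic rows: Co1 (helper26; generated by notes/TH/spor26/gen.py.txt)
-/

set_option autoImplicit false
set_option Elab.async false

namespace Cfsg.Agent.TH.Spor.NCo1

open Cfsg Cfsg.Agent.TAB.Eng Cfsg.Agent.H940.Eng

theorem okB : ∀ ld ∈ big, bigE E ld = true :=
  fa_cons okB23 <| fa_nil

theorem okA : ∀ a ∈ divsT [(13, 1), (11, 1)], allA (leaf E) [(7, 2), (5, 4), (3, 9), (2, 21)] a = true := by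
  rw [show divsT [(13, 1), (11, 1)] = [1, 11, 13, 143] by decide +kernel]
  exact fa_cons okA0 <| fa_cons okA1 <| fa_cons okA2 <| fa_cons okA3 <|
    fa_nil

/-- the pairs -/
def pj (L : List (ℕ × ℕ × List Step)) : List (ℕ × ℕ) := L.map fun x => (x.1, x.2.1)

theorem okC : ∀ x ∈ E.SV, ∃ CL, okL TAB.Co1.D (TAB.Sm2.mkRows TAB.Co1.RA TAB.Co1.RB) E.j E.P E.Z CL = true ∧ x ∈ pj CL := by
  rw [show E.SV = [pj CL0, pj CL1, pj CL2, pj CL3, pj CL4, pj CL5, pj CL6, pj CL7, pj CL8, pj CL9, pj CL10, pj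
  CL11].flatten by decide +kernel]
  exact forall_flatten <| fa_cons (fun _ h => ⟨_, okC0, h⟩) <| fa_cons (fun _ h => ⟨_, okC1, h⟩) <| fa_cons (fun _ h => ⟨_, okC2, h⟩) <| fa_cons (fun _ h => ⟨_, okC3, h⟩) <|
    fa_cons (fun _ h => ⟨_, okC4, h⟩) <| fa_cons (fun _ h => ⟨_, okC5, h⟩) <| fa_cons (fun _ h => ⟨_, okC6, h⟩) <| fa_cons (fun _ h => ⟨_, okC7, h⟩) <|
    fa_cons (fun _ h => ⟨_, okC8, h⟩) <| fa_cons (fun _ h => ⟨_, okC9, h⟩) <| fa_cons (fun _ h => ⟨_, okC10, h⟩) <| fa_cons (fun _ h => ⟨_, okC11, h⟩) <|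
    fa_nil

/-- **no configuration** -/
theorem noW {K : Type} [Group K] [Finite K] (h : In K TAB.Co1.D (TAB.Sm2.mkRows TAB.Co1.RA TAB.Co1.RB)) : NoW K 2 :=
  noW_of (E := E) boxCH h.inC ok1 (H940.Eng.D.ords_co1 base)
    (fun ld h => ⟨List.mem_append_left _ h, okB ld h⟩) (by decide +kernel) okA okC

end Cfsg.Agent.TH.Spor.NCo1
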