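import Cfsg.Agent.TH.Spor.NFi24D

/-!
# S3541, sporadic rows: Fi24, enumeration (helper26; generated by notes/TH/spor26/gen.py.txt)
-/

set_option autoImplicit false
set_option Elab.async false

namespace Cfsg.Agent.TH.Spor.NFi24

open Cfsg Cfsg.Agent.TAB.Eng Cfsg.Agent.H940.Eng

theorem okA0 : allA (leaf E) [(7, 3), (5, 2), (3, 16), (2, 21)] 1 = true := by decide +kernel

theorem okA1 : allA (leaf E) [(7, 3), (5, 2), (3, 16), (2, 21)] 11 = true := by decide +kernel

theorem okA2 : allA (leaf E) [(7, 3), (5, 2), (3, 16), (2, 21)] 13 = true := by decide +kernel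

theorem okA3 : allA (leaf E) [(7, 3), (5, 2), (3, 16), (2, 21)] 143 = true := by decide +kernel

theorem okB29 : bigE E ⟨29, 29, [(2, 1), (7, 1), (29, 1)]⟩ = true := by
  decide +kernel

theorem okB23 : bigE E ⟨23, 23, [(11, 1), (23, 1)]⟩ = true := by
  decide +kernel

theorem okB17 : bigE E ⟨17, 17, [(2, 4), (17, 1)]⟩ = true := by
  decide +kernel

end Cfsg.Agent.TH.Spor.NFi24
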