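import Cfsg.Agent.TH.Spor.NMD

/-!
# S3541, sporadic rows: M, enumeration (helper26; generated by notes/TH/spor26/gen.py.txt)
-/

set_option autoImplicit false
set_option Elab.async false

namespace Cfsg.Agent.TH.Spor.NM

open Cfsg Cfsg.Agent.TAB.Eng Cfsg.Agent.H940.Eng

theorem okA0 : allA (leaf E) [(5, 9), (3, 20), (2, 46)] 1 = true := by decide +kernel

theorem okA1 : allA (leaf E) [(5, 9), (3, 20), (2, 46)] 7 = true := by decide +kernel

theorem okA2 : allA (leaf E) [(5, 9), (3, 20), (2, 46)] 49 = true := by decide +kernel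

theorem okA3 : allA (leaf E) [(5, 9), (3, 20), (2, 46)] 343 = true := by decide +kernel

theorem okA4 : allA (leaf E) [(5, 9), (3, 20), (2, 46)] 2401 = true := by decide +kernel

theorem okA5 : allA (leaf E) [(5, 9), (3, 20), (2, 46)] 16807 = true := by decide +kernel

theorem okA6 : allA (leaf E) [(5, 9), (3, 20), (2, 46)] 117649 = true := by decide +kernel

theorem okA7 : allA (leaf E) [(5, 9), (3, 20), (2, 46)] 11 = true := by decide +kernel

theorem okA8 : allA (leaf E) [(5, 9), (3, 20), (2, 46)] 77 = true := by decide +kernel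

theorem okA9 : allA (leaf E) [(5, 9), (3, 20), (2, 46)] 539 = true := by decide +kernel

theorem okA10 : allA (leaf E) [(5, 9), (3, 20), (2, 46)] 3773 = true := by decide +kernel

theorem okA11 : allA (leaf E) [(5, 9), (3, 20), (2, 46)] 26411 = true := by decide +kernel

theorem okA12 : allA (leaf E) [(5, 9), (3, 20), (2, 46)] 184877 = true := by decide +kernel

theorem okA13 : allA (leaf E) [(5, 9), (3, 20), (2, 46)] 1294139 = true := by decide +kernel

end Cfsg.Agent.TH.Spor.NM
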