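import Cfsg.Agent.TH.Spor.NMD

/-!
# S3541, sporadic rows: M, enumeration (helper26; generated by notes/TH/spor26/gen.py.txt)
-/

set_option autoImplicit false
set_option Elab.async false

namespace Cfsg.Agent.TH.Spor.NM

open Cfsg Cfsg.Agent.TAB.Eng Cfsg.Agent.H940.Eng

theorem okA14 : allA (leaf E) [(5, 9), (3, 20), (2, 46)] 121 = true := by decide +kernel

theorem okA15 : allA (leaf E) [(5, 9), (3, 20), (2, 46)] 847 = true := by decide +kernel

theorem okA16 : allA (leaf E) [(5, 9), (3, 20), (2, 46)] 5929 = true := by decide +kernel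

theorem okA17 : allA (leaf E) [(5, 9), (3, 20), (2, 46)] 41503 = true := by decide +kernel

theorem okA18 : allA (leaf E) [(5, 9), (3, 20), (2, 46)] 290521 = true := by decide +kernel

theorem okA19 : allA (leaf E) [(5, 9), (3, 20), (2, 46)] 2033647 = true := by decide +kernel

theorem okA20 : allA (leaf E) [(5, 9), (3, 20), (2, 46)] 14235529 = true := by decide +kernel

theorem okA21 : allA (leaf E) [(5, 9), (3, 20), (2, 46)] 13 = true := by decide +kernel

theorem okA22 : allA (leaf E) [(5, 9), (3, 20), (2, 46)] 91 = true := by decide +kernel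

theorem okA23 : allA (leaf E) [(5, 9), (3, 20), (2, 46)] 637 = true := by decide +kernel

theorem okA24 : allA (leaf E) [(5, 9), (3, 20), (2, 46)] 4459 = true := by decide +kernel

theorem okA25 : allA (leaf E) [(5, 9), (3, 20), (2, 46)] 31213 = true := by decide +kernel

theorem okA26 : allA (leaf E) [(5, 9), (3, 20), (2, 46)] 218491 = true := by decide +kernel

theorem okA27 : allA (leaf E) [(5, 9), (3, 20), (2, 46)] 1529437 = true := by decide +kernel

end Cfsg.Agent.TH.Spor.NM
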