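import Cfsg.Agent.TH.Spor.NMD

/-!
# S3541, sporadic rows: M, enumeration (helper26; generated by notes/TH/spor26/gen.py.txt)
-/

set_option autoImplicit false
set_option Elab.async false

namespace Cfsg.Agent.TH.Spor.NM

open Cfsg Cfsg.Agent.TAB.Eng Cfsg.Agent.H940.Eng

theorem okA28 : allA (leaf E) [(5, 9), (3, 20), (2, 46)] 143 = true := by decide +kernel

theorem okA29 : allA (leaf E) [(5, 9), (3, 20), (2, 46)] 1001 = true := by decide +kernel

theorem okA30 : allA (leaf E) [(5, 9), (3, 20), (2, 46)] 7007 = true := by decide +kernel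

theorem okA31 : allA (leaf E) [(5, 9), (3, 20), (2, 46)] 49049 = true := by decide +kernel

theorem okA32 : allA (leaf E) [(5, 9), (3, 20), (2, 46)] 343343 = true := by decide +kernel

theorem okA33 : allA (leaf E) [(5, 9), (3, 20), (2, 46)] 2403401 = true := by decide +kernel

theorem okA34 : allA (leaf E) [(5, 9), (3, 20), (2, 46)] 16823807 = true := by decide +kernel

theorem okA35 : allA (leaf E) [(5, 9), (3, 20), (2, 46)] 1573 = true := by decide +kernel

theorem okA36 : allA (leaf E) [(5, 9), (3, 20), (2, 46)] 11011 = true := by decide +kernel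

theorem okA37 : allA (leaf E) [(5, 9), (3, 20), (2, 46)] 77077 = true := by decide +kernel

theorem okA38 : allA (leaf E) [(5, 9), (3, 20), (2, 46)] 539539 = true := by decide +kernel

theorem okA39 : allA (leaf E) [(5, 9), (3, 20), (2, 46)] 3776773 = true := by decide +kernel

theorem okA40 : allA (leaf E) [(5, 9), (3, 20), (2, 46)] 26437411 = true := by decide +kernel

theorem okA41 : allA (leaf E) [(5, 9), (3, 20), (2, 46)] 185061877 = true := by decide +kernel

end Cfsg.Agent.TH.Spor.NM
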