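import Cfsg.Agent.TH.Spor.NMD

/-!
# S3541, sporadic rows: M, enumeration (helper26; generated by notes/TH/spor26/gen.py.txt)
-/

set_option autoImplicit false
set_option Elab.async false

namespace Cfsg.Agent.TH.Spor.NM

open Cfsg Cfsg.Agent.TAB.Eng Cfsg.Agent.H940.Eng

theorem okA42 : allA (leaf E) [(5, 9), (3, 20), (2, 46)] 169 = true := by decide +kernel

theorem okA43 : allA (leaf E) [(5, 9), (3, 20), (2, 46)] 1183 = true := by decide +kernel

theorem okA44 : allA (leaf E) [(5, 9), (3, 20), (2, 46)] 8281 = true := by decide +kernel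

theorem okA45 : allA (leaf E) [(5, 9), (3, 20), (2, 46)] 57967 = true := by decide +kernel

theorem okA46 : allA (leaf E) [(5, 9), (3, 20), (2, 46)] 405769 = true := by decide +kernel

theorem okA47 : allA (leaf E) [(5, 9), (3, 20), (2, 46)] 2840383 = true := by decide +kernel

theorem okA48 : allA (leaf E) [(5, 9), (3, 20), (2, 46)] 19882681 = true := by decide +kernel

theorem okA49 : allA (leaf E) [(5, 9), (3, 20), (2, 46)] 1859 = true := by decide +kernel

theorem okA50 : allA (leaf E) [(5, 9), (3, 20), (2, 46)] 13013 = true := by decide +kernel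

theorem okA51 : allA (leaf E) [(5, 9), (3, 20), (2, 46)] 91091 = true := by decide +kernel

theorem okA52 : allA (leaf E) [(5, 9), (3, 20), (2, 46)] 637637 = true := by decide +kernel

theorem okA53 : allA (leaf E) [(5, 9), (3, 20), (2, 46)] 4463459 = true := by decide +kernel

theorem okA54 : allA (leaf E) [(5, 9), (3, 20), (2, 46)] 31244213 = true := by decide +kernel

theorem okA55 : allA (leaf E) [(5, 9), (3, 20), (2, 46)] 218709491 = true := by decide +kernel

end Cfsg.Agent.TH.Spor.NM
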