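import Cfsg.Agent.TH.Spor.NMD

/-!
# S3541, sporadic rows: M, enumeration (helper26; generated by notes/TH/spor26/gen.py.txt)
-/

set_option autoImplicit false
set_option Elab.async false

namespace Cfsg.Agent.TH.Spor.NM

open Cfsg Cfsg.Agent.TAB.Eng Cfsg.Agent.H940.Eng

theorem okA56 : allA (leaf E) [(5, 9), (3, 20), (2, 46)] 20449 = true := by decide +kernel

theorem okA57 : allA (leaf E) [(5, 9), (3, 20), (2, 46)] 143143 = true := by decide +kernel

theorem okA58 : allA (leaf E) [(5, 9), (3, 20), (2, 46)] 1002001 = true := by decide +kernel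

theorem okA59 : allA (leaf E) [(5, 9), (3, 20), (2, 46)] 7014007 = true := by decide +kernel

theorem okA60 : allA (leaf E) [(5, 9), (3, 20), (2, 46)] 49098049 = true := by decide +kernel

theorem okA61 : allA (leaf E) [(5, 9), (3, 20), (2, 46)] 343686343 = true := by decide +kernel

theorem okA62 : allA (leaf E) [(5, 9), (3, 20), (2, 46)] 2405804401 = true := by decide +kernel

theorem okA63 : allA (leaf E) [(5, 9), (3, 20), (2, 46)] 2197 = true := by decide +kernel

theorem okA64 : allA (leaf E) [(5, 9), (3, 20), (2, 46)] 15379 = true := by decide +kernel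

theorem okA65 : allA (leaf E) [(5, 9), (3, 20), (2, 46)] 107653 = true := by decide +kernel

theorem okA66 : allA (leaf E) [(5, 9), (3, 20), (2, 46)] 753571 = true := by decide +kernel

theorem okA67 : allA (leaf E) [(5, 9), (3, 20), (2, 46)] 5274997 = true := by decide +kernel

theorem okA68 : allA (leaf E) [(5, 9), (3, 20), (2, 46)] 36924979 = true := by decide +kernel

theorem okA69 : allA (leaf E) [(5, 9), (3, 20), (2, 46)] 258474853 = true := by decide +kernel

end Cfsg.Agent.TH.Spor.NM
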