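import Cfsg.Agent.TH.Spor.NMD

/-!
# S3541, sporadic rows: M, enumeration (helper26; generated by notes/TH/spor26/gen.py.txt)
-/

set_option autoImplicit false
set_option Elab.async false

namespace Cfsg.Agent.TH.Spor.NM

open Cfsg Cfsg.Agent.TAB.Eng Cfsg.Agent.H940.Eng

theorem okA70 : allA (leaf E) [(5, 9), (3, 20), (2, 46)] 24167 = true := by decide +kernel

theorem okA71 : allA (leaf E) [(5, 9), (3, 20), (2, 46)] 169169 = true := by decide +kernel

theorem okA72 : allA (leaf E) [(5, 9), (3, 20), (2, 46)] 1184183 = true := by decide +kernel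

theorem okA73 : allA (leaf E) [(5, 9), (3, 20), (2, 46)] 8289281 = true := by decide +kernel

theorem okA74 : allA (leaf E) [(5, 9), (3, 20), (2, 46)] 58024967 = true := by decide +kernel

theorem okA75 : allA (leaf E) [(5, 9), (3, 20), (2, 46)] 406174769 = true := by decide +kernel

theorem okA76 : allA (leaf E) [(5, 9), (3, 20), (2, 46)] 2843223383 = true := by decide +kernel

theorem okA77 : allA (leaf E) [(5, 9), (3, 20), (2, 46)] 265837 = true := by decide +kernel

theorem okA78 : allA (leaf E) [(5, 9), (3, 20), (2, 46)] 1860859 = true := by decide +kernel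

theorem okA79 : allA (leaf E) [(5, 9), (3, 20), (2, 46)] 13026013 = true := by decide +kernel

theorem okA80 : allA (leaf E) [(5, 9), (3, 20), (2, 46)] 91182091 = true := by decide +kernel

theorem okA81 : allA (leaf E) [(5, 9), (3, 20), (2, 46)] 638274637 = true := by decide +kernel

theorem okA82 : allA (leaf E) [(5, 9), (3, 20), (2, 46)] 4467922459 = true := by decide +kernel

theorem okA83 : allA (leaf E) [(5, 9), (3, 20), (2, 46)] 31275457213 = true := by decide +kernel

end Cfsg.Agent.TH.Spor.NM
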