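import Cfsg.Agent.TH.Spor.NMD

/-!
# S3541, sporadic rows: M, large primes (helper26; generated by notes/TH/spor26/gen.py.txt)
-/

set_option autoImplicit false
set_option Elab.async false

namespace Cfsg.Agent.TH.Spor.NM

open Cfsg Cfsg.Agent.TAB.Eng Cfsg.Agent.H940.Eng

theorem okB71 : bigE E ⟨71, 71, [(5, 1), (7, 1), (71, 1)]⟩ = true := by
  decide +kernel

theorem okB59 : bigE E ⟨59, 59, [(29, 1), (59, 1)]⟩ = true := by
  decide +kernel

theorem okB47 : bigE E ⟨47, 94, [(2, 1), (23, 1), (47, 1)]⟩ = true := by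
  decide +kernel

theorem okB41 : bigE E ⟨41, 41, [(2, 3), (5, 1), (41, 1)]⟩ = true := by
  decide +kernel

theorem okM31_0 : bigM E ⟨31, 558, [(2, 1), (3, 2), (5, 1), (31, 1)]⟩ m31_0 = true := by
  decide +kernel

theorem okM31_1 : bigM E ⟨31, 558, [(2, 1), (3, 2), (5, 1), (31, 1)]⟩ m31_1 = true := by
  decide +kernel

theorem okS31 : bigC E ⟨31, 558, [(2, 1), (3, 2), (5, 1), (31, 1)]⟩
    [m31_0, m31_1].flatten = true := by
  decide +kernel

theorem okB29 : bigE E ⟨29, 87, [(2, 2), (3, 1), (7, 1), (29, 1)]⟩ = true := by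
  decide +kernel

theorem okM23_0 : bigM E ⟨23, 552, [(2, 3), (3, 1), (11, 1), (23, 1)]⟩ m23_0 = true := by
  decide +kernel

end Cfsg.Agent.TH.Spor.NM
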