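import Cfsg.Agent.TH.Spor.NMD

/-!
# S3541, sporadic rows: M, large primes (helper26; generated by notes/TH/spor26/gen.py.txt)
-/

set_option autoImplicit false
set_option Elab.async false

namespace Cfsg.Agent.TH.Spor.NM

open Cfsg Cfsg.Agent.TAB.Eng Cfsg.Agent.H940.Eng

theorem okM23_1 : bigM E ⟨23, 552, [(2, 3), (3, 1), (11, 1), (23, 1)]⟩ m23_1 = true := by
  decide +kernel

theorem okS23 : bigC E ⟨23, 552, [(2, 3), (3, 1), (11, 1), (23, 1)]⟩
    [m23_0, m23_1].flatten = true := by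
  decide +kernel

theorem okM19_0 : bigM E ⟨19, 20520, [(2, 3), (3, 3), (5, 1), (19, 1)]⟩ m19_0 = true := by
  decide +kernel

theorem okM19_1 : bigM E ⟨19, 20520, [(2, 3), (3, 3), (5, 1), (19, 1)]⟩ m19_1 = true := by
  decide +kernel

theorem okM19_2 : bigM E ⟨19, 20520, [(2, 3), (3, 3), (5, 1), (19, 1)]⟩ m19_2 = true := by
  decide +kernel

theorem okM19_3 : bigM E ⟨19, 20520, [(2, 3), (3, 3), (5, 1), (19, 1)]⟩ m19_3 = true := by
  decide +kernel

theorem okM19_4 : bigM E ⟨19, 20520, [(2, 3), (3, 3), (5, 1), (19, 1)]⟩ m19_4 = true := by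
  decide +kernel

theorem okM19_5 : bigM E ⟨19, 20520, [(2, 3), (3, 3), (5, 1), (19, 1)]⟩ m19_5 = true := by
  decide +kernel

theorem okM19_6 : bigM E ⟨19, 20520, [(2, 3), (3, 3), (5, 1), (19, 1)]⟩ m19_6 = true := by
  decide +kernel

end Cfsg.Agent.TH.Spor.NM
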