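import Cfsg.Agent.TH.Spor.NMD

/-!
# S3541, sporadic rows: M, large primes (helper26; generated by notes/TH/spor26/gen.py.txt)
-/

set_option autoImplicit false
set_option Elab.async false

namespace Cfsg.Agent.TH.Spor.NM

open Cfsg Cfsg.Agent.TAB.Eng Cfsg.Agent.H940.Eng

theorem okM19_7 : bigM E ⟨19, 20520, [(2, 3), (3, 3), (5, 1), (19, 1)]⟩ m19_7 = true := by
  decide +kernel

theorem okS19 : bigC E ⟨19, 20520, [(2, 3), (3, 3), (5, 1), (19, 1)]⟩
    [m19_0, m19_1, m19_2, m19_3, m19_4, m19_5, m19_6, m19_7].flatten = true := by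
  decide +kernel

theorem okM17_0 : bigM E ⟨17, 45696, [(2, 7), (3, 1), (7, 1), (17, 1)]⟩ m17_0 = true := by
  decide +kernel

theorem okM17_1 : bigM E ⟨17, 45696, [(2, 7), (3, 1), (7, 1), (17, 1)]⟩ m17_1 = true := by
  decide +kernel

theorem okM17_2 : bigM E ⟨17, 45696, [(2, 7), (3, 1), (7, 1), (17, 1)]⟩ m17_2 = true := by
  decide +kernel

theorem okM17_3 : bigM E ⟨17, 45696, [(2, 7), (3, 1), (7, 1), (17, 1)]⟩ m17_3 = true := by
  decide +kernel

theorem okM17_4 : bigM E ⟨17, 45696, [(2, 7), (3, 1), (7, 1), (17, 1)]⟩ m17_4 = true := by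
  decide +kernel

theorem okM17_5 : bigM E ⟨17, 45696, [(2, 7), (3, 1), (7, 1), (17, 1)]⟩ m17_5 = true := by
  decide +kernel

theorem okM17_6 : bigM E ⟨17, 45696, [(2, 7), (3, 1), (7, 1), (17, 1)]⟩ m17_6 = true := by
  decide +kernel

end Cfsg.Agent.TH.Spor.NM
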