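import Cfsg.Agent.TH.Spor.NMD

/-!
# S3541, sporadic rows: M, large primes (helper26; generated by notes/TH/spor26/gen.py.txt)
-/

set_option autoImplicit false
set_option Elab.async false

namespace Cfsg.Agent.TH.Spor.NM

open Cfsg Cfsg.Agent.TAB.Eng Cfsg.Agent.H940.Eng

theorem okM17_7 : bigM E ⟨17, 45696, [(2, 7), (3, 1), (7, 1), (17, 1)]⟩ m17_7 = true := by
  decide +kernel

theorem okM17_8 : bigM E ⟨17, 45696, [(2, 7), (3, 1), (7, 1), (17, 1)]⟩ m17_8 = true := by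
  decide +kernel

theorem okM17_9 : bigM E ⟨17, 45696, [(2, 7), (3, 1), (7, 1), (17, 1)]⟩ m17_9 = true := by
  decide +kernel

theorem okM17_10 : bigM E ⟨17, 45696, [(2, 7), (3, 1), (7, 1), (17, 1)]⟩ m17_10 = true := by
  decide +kernel

theorem okM17_11 : bigM E ⟨17, 45696, [(2, 7), (3, 1), (7, 1), (17, 1)]⟩ m17_11 = true := by
  decide +kernel

theorem okM17_12 : bigM E ⟨17, 45696, [(2, 7), (3, 1), (7, 1), (17, 1)]⟩ m17_12 = true := by
  decide +kernel

theorem okS17 : bigC E ⟨17, 45696, [(2, 7), (3, 1), (7, 1), (17, 1)]⟩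
    [m17_0, m17_1, m17_2, m17_3, m17_4, m17_5, m17_6, m17_7, m17_8, m17_9, m17_10, m17_11, m17_12].flatten = true :=
    by
  decide +kernel

end Cfsg.Agent.TH.Spor.NM
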